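import Mathlib
import Cfsg.Prelude.Def_Local
import Cfsg.Agent.H51.FStar
import Cfsg.Agent.H51.Basic
import Cfsg.Agent.H53.Stabilizer
import Cfsg.Agent.H50.ControlTransfer

/-!
The action of a `q`-group on a finite group when it is normalized by a large subnormal subgroup of
the generalized Fitting subgroup.
-/

set_option linter.style.haveILetI false

open Subgroup

namespace Cfsg.Agent.H50

variable {A : Type*} [Group A] [Finite A]

/-- `S` lies in `F*(A)`, is subnormal and contains its centralizer in `F*(A)`. -/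
structure LargeSubnormal (S : Subgroup A) : Prop where
  le_fstar : S ≤ Cfsg.generalizedFittingSubgroup A
  subnormal : S.IsSubnormal
  centralizer_le : Cfsg.generalizedFittingSubgroup A ⊓ centralizer (S : Set A) ≤ S

/-- Such a subgroup contains every component. -/
theorem LargeSubnormal.layer_le {S : Subgroup A} (hS : LargeSubnormal S) : Cfsg.layer A ≤ S := by
  refine sSup_le fun L hL => ?_
  rcases H51.component_le_or_commute_of_subnormal hL hS.subnormal with h | h
  · exact h
  · refine le_trans (le_inf ?_ ?_) hS.centralizer_le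
    · exact (H51.component_le_layer hL).trans le_sup_left
    · exact commutator_eq_bot_iff_le_centralizer.1 h

variable {q : ℕ} [hq : Fact q.Prime]

/-- An element of order prime to `q` of the Fitting subgroup lies in the `q'`-core. -/
theorem mem_pPrimeCore_of_mem_fitting {f : A} (hf : f ∈ Cfsg.fittingSubgroup A)
    (ho : (orderOf f).Coprime q) : f ∈ Cfsg.pPrimeCore q A := by
  haveI := H51.pCore_normal q A
  haveI := H51.pPrimeCore_normal q A
  have hle : Cfsg.fittingSubgroup A ≤ Cfsg.pPrimeCore q A ⊔ Cfsg.pCore q A := by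
    rw [H51.fittingSubgroup_eq_iSup_pCore]
    refine iSup_le fun r => ?_
    by_cases hr : (r : ℕ) = q
    · rw [hr]; exact le_sup_right
    · refine le_trans (H51.le_pPrimeCore (H51.pCore_normal (r : ℕ) A) ?_) le_sup_left
      haveI : Fact (r : ℕ).Prime := ⟨Nat.prime_of_mem_primeFactors r.2⟩
      obtain ⟨k, hk⟩ := IsPGroup.iff_card.1 (H51.pCore_isPGroup (r : ℕ) A)
      rw [hk]
      exact Nat.Coprime.pow_left k ((Nat.coprime_primes (Nat.prime_of_mem_primeFactors r.2) hq.out).2 hr)
  have hf' : f ∈ ((Cfsg.pPrimeCore q A ⊔ Cfsg.pCore q A : Subgroup A) : Set A) := hle hf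
  rw [Subgroup.normal_mul] at hf'
  obtain ⟨m, hm, t, ht, rfl⟩ := hf'
  -- the image modulo the `q'`-core has order dividing a power of `q` and the order of `f`
  obtain ⟨k, hk⟩ := H51.pCore_isPGroup q A ⟨t, ht⟩
  have hk' : t ^ q ^ k = 1 := congrArg Subtype.val hk
  have h1 : (QuotientGroup.mk' (Cfsg.pPrimeCore q A) (m * t)) ^ q ^ k = 1 := by
    rw [map_mul, show QuotientGroup.mk' (Cfsg.pPrimeCore q A) m = 1 from
      (QuotientGroup.eq_one_iff m).2 hm, one_mul, ← map_pow, hk', map_one]
  have h2 : (QuotientGroup.mk' (Cfsg.pPrimeCore q A) (m * t)) ^ orderOf (m * t) = 1 := by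
    rw [← map_pow, pow_orderOf_eq_one, map_one]
  have h3 := pow_gcd_eq_one.2 ⟨h2, h1⟩
  rw [Nat.Coprime.gcd_eq_one (ho.pow_right k), pow_one] at h3
  exact (QuotientGroup.eq_one_iff (m * t)).1 h3

/-- An element of `q`-power order of the Fitting subgroup lies in the `q`-core. -/
theorem mem_pCore_of_mem_fitting {f : A} (hf : f ∈ Cfsg.fittingSubgroup A) {k : ℕ}
    (ho : orderOf f = q ^ k) : f ∈ Cfsg.pCore q A := by
  haveI := H51.pCore_normal q A
  haveI := H51.pPrimeCore_normal q A
  have hle : Cfsg.fittingSubgroup A ≤ Cfsg.pPrimeCore q A ⊔ Cfsg.pCore q A := by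
    rw [H51.fittingSubgroup_eq_iSup_pCore]
    refine iSup_le fun r => ?_
    by_cases hr : (r : ℕ) = q
    · rw [hr]; exact le_sup_right
    · refine le_trans (H51.le_pPrimeCore (H51.pCore_normal (r : ℕ) A) ?_) le_sup_left
      haveI : Fact (r : ℕ).Prime := ⟨Nat.prime_of_mem_primeFactors r.2⟩
      obtain ⟨j, hj⟩ := IsPGroup.iff_card.1 (H51.pCore_isPGroup (r : ℕ) A)
      rw [hj]
      exact Nat.Coprime.pow_left j ((Nat.coprime_primes (Nat.prime_of_mem_primeFactors r.2) hq.out).2 hr)
  have hf' : f ∈ ((Cfsg.pPrimeCore q A ⊔ Cfsg.pCore q A : Subgroup A) : Set A) := hle hf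
  rw [Subgroup.normal_mul] at hf'
  obtain ⟨m, hm, t, ht, rfl⟩ := hf'
  have h1 : (QuotientGroup.mk' (Cfsg.pCore q A) (m * t)) ^ q ^ k = 1 := by
    rw [← map_pow, ← ho, pow_orderOf_eq_one, map_one]
  have h2 : (QuotientGroup.mk' (Cfsg.pCore q A) (m * t)) ^ orderOf m = 1 := by
    rw [map_mul, show QuotientGroup.mk' (Cfsg.pCore q A) t = 1 from (QuotientGroup.eq_one_iff t).2 ht,
      mul_one, ← map_pow, pow_orderOf_eq_one, map_one]
  have hmo : (orderOf m).Coprime q :=
    Nat.Coprime.coprime_dvd_left (Subgroup.orderOf_dvd_natCard _ hm) (H51.pPrimeCore_coprime q A)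
  have h3 := pow_gcd_eq_one.2 ⟨h2, h1⟩
  rw [Nat.Coprime.gcd_eq_one (hmo.pow_right k), pow_one] at h3
  exact (QuotientGroup.eq_one_iff (m * t)).1 h3

/-- The `q'`-part of the Fitting subgroup commutes with the `q`-core. -/
theorem commute_pCore_pPrimeCore {x y : A} (hx : x ∈ Cfsg.pCore q A) (hy : y ∈ Cfsg.pPrimeCore q A) :
    Commute x y := by
  refine Subgroup.commute_of_normal_of_disjoint _ _ (H51.pCore_normal q A) (H51.pPrimeCore_normal q A)
    (disjoint_iff.2 (inf_eq_bot_of_coprime ?_)) x y hx hy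
  obtain ⟨k, hk⟩ := IsPGroup.iff_card.1 (H51.pCore_isPGroup q A)
  rw [hk]
  exact Nat.Coprime.pow_left k (H51.pPrimeCore_coprime q A).symm

/-- The elements of order prime to `q` of `F*(A)` lie in `E(A)` times the `q'`-part of `F(A)`. -/
theorem fstar_coprime_mem {f : A} (hf : f ∈ Cfsg.generalizedFittingSubgroup A)
    (ho : (orderOf f).Coprime q) :
    f ∈ Cfsg.layer A ⊔ (Cfsg.fittingSubgroup A ⊓ Cfsg.pPrimeCore q A) := by
  haveI := H51.layer_normal A
  have hf' : f ∈ ((Cfsg.layer A ⊔ Cfsg.fittingSubgroup A : Subgroup A) : Set A) := hf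
  rw [Subgroup.normal_mul] at hf'
  obtain ⟨e, he, n, hn, rfl⟩ := hf'
  obtain ⟨a, b, hsplit, ⟨k, hk⟩, hb⟩ := exists_p_p'_split (p := q) n
  set M := Cfsg.layer A ⊔ (Cfsg.fittingSubgroup A ⊓ Cfsg.pPrimeCore q A) with hM
  haveI : M.Normal := by
    haveI := H51.fittingSubgroup_normal A
    haveI := H51.pPrimeCore_normal q A
    rw [hM]; infer_instance
  have hbM : n ^ b ∈ M := mem_sup_right ⟨pow_mem hn b, mem_pPrimeCore_of_mem_fitting (pow_mem hn b) hb⟩
  have heM : e ∈ M := mem_sup_left he
  have hem : e * n = e * (n ^ a * n ^ b) := by rw [← hsplit]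
  have h1 : (QuotientGroup.mk' M (e * n)) ^ q ^ k = 1 := by
    rw [hem, map_mul, map_mul, show QuotientGroup.mk' M e = 1 from (QuotientGroup.eq_one_iff e).2 heM,
      show QuotientGroup.mk' M (n ^ b) = 1 from (QuotientGroup.eq_one_iff _).2 hbM, one_mul, mul_one,
      ← map_pow, ← hk, pow_orderOf_eq_one, map_one]
  have h2 : (QuotientGroup.mk' M (e * n)) ^ orderOf (e * n) = 1 := by
    rw [← map_pow, pow_orderOf_eq_one, map_one]
  have h3 := pow_gcd_eq_one.2 ⟨h2, h1⟩
  rw [Nat.Coprime.gcd_eq_one (ho.pow_right k), pow_one] at h3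
  exact (QuotientGroup.eq_one_iff (e * n)).1 h3

/-- A large subnormal subgroup contains the centre of the `q`-core. -/
theorem LargeSubnormal.center_pCore_le {S : Subgroup A} (hS : LargeSubnormal S) :
    (Cfsg.pCore q A ⊓ centralizer (Cfsg.pCore q A : Set A)) ≤ S := by
  rintro z ⟨hz, hzc⟩
  refine hS.centralizer_le ⟨mem_sup_right (H51.pCore_le_fittingSubgroup q A hz), ?_⟩
  refine mem_centralizer_iff.2 fun s hs => ?_
  have hzF : ∀ f ∈ Cfsg.fittingSubgroup A, Commute f z := by
    intro f hf
    obtain ⟨a, b, hsplit, ⟨k, hk⟩, hb⟩ := exists_p_p'_split (p := q) f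
    rw [hsplit]
    refine Commute.mul_left ?_ ?_
    · exact mem_centralizer_iff.1 hzc _ (mem_pCore_of_mem_fitting (pow_mem hf a) hk)
    · exact (commute_pCore_pPrimeCore hz (mem_pPrimeCore_of_mem_fitting (pow_mem hf b) hb)).symm
  have hcl : Cfsg.generalizedFittingSubgroup A ≤ centralizer ({z} : Set A) := by
    refine sup_le ?_ fun f hf => mem_centralizer_singleton_iff.2 (hzF f hf).eq
    intro e he
    have h := commutator_eq_bot_iff_le_centralizer.1 (H51.layer_commute_fittingSubgroup A) he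
    exact mem_centralizer_singleton_iff.2
      (mem_centralizer_iff.1 h z (H51.pCore_le_fittingSubgroup q A hz)).symm
  exact mem_centralizer_singleton_iff.1 (hcl (hS.le_fstar hs))

variable {S X : Subgroup A}

/-- A `q`-subgroup normalized by a large subnormal subgroup centralizes the layer. -/
theorem LargeSubnormal.layer_le_centralizer (hS : LargeSubnormal S) (hX : IsPGroup q X)
    (hSX : S ≤ normalizer (X : Set A)) : Cfsg.layer A ≤ centralizer (X : Set A) := by
  haveI : Group.IsSolvable X := by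
    haveI := hX.isNilpotent
    infer_instance
  refine sSup_le fun L hL => commutator_eq_bot_iff_le_centralizer.1
    (H51.component_commute_of_solvable hL ?_ inferInstance)
  exact ((H51.component_le_layer hL).trans hS.layer_le).trans hSX

/-- A `q`-subgroup normalized by a large subnormal subgroup commutes with the elements of order prime
to `q` in `F*(A)`. -/
theorem LargeSubnormal.commute_coprime (hS : LargeSubnormal S) (hX : IsPGroup q X)
    (hSX : S ≤ normalizer (X : Set A)) {f : A} (hf : f ∈ Cfsg.generalizedFittingSubgroup A)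
    (ho : (orderOf f).Coprime q) {x : A} (hx : x ∈ X) : Commute x f := by
  haveI := H51.fittingSubgroup_normal A
  haveI := H51.pPrimeCore_normal q A
  have hE := hS.layer_le_centralizer hX hSX
  set M : Subgroup A := Cfsg.fittingSubgroup A ⊓ Cfsg.pPrimeCore q A with hMdef
  haveI : M.Normal := Subgroup.normal_inf_normal _ _
  have hMcop : (Nat.card M).Coprime q :=
    Nat.Coprime.coprime_dvd_left (card_dvd_of_le inf_le_right) (H51.pPrimeCore_coprime q A)
  haveI : Group.IsNilpotent M := by
    haveI := H51.fittingSubgroup_isNilpotent A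
    exact Group.nilpotent_of_mulEquiv (subgroupOfEquivOfLe (inf_le_left : M ≤ Cfsg.fittingSubgroup A))
  have hXcop : (Nat.card X).Coprime (Nat.card M) := by
    obtain ⟨k, hk⟩ := IsPGroup.iff_card.1 hX
    rw [hk]; exact Nat.Coprime.pow_left k hMcop.symm
  -- `X` centralizes `M ∩ S`
  have hSM : M ⊓ S ≤ centralizer (X : Set A) := by
    rintro m ⟨hmM, hmS⟩
    refine mem_centralizer_iff.2 fun x hx => ?_
    have h1 : x * m * x⁻¹ * m⁻¹ ∈ X ⊓ M := by
      refine mem_inf.2 ⟨?_, mul_mem ((inferInstance : M.Normal).conj_mem m hmM x) (inv_mem hmM)⟩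
      rw [show x * m * x⁻¹ * m⁻¹ = x * (m * x⁻¹ * m⁻¹) by group]
      exact mul_mem hx ((mem_normalizer_iff.1 (hSX hmS) _).1 (inv_mem hx))
    rw [inf_eq_bot_of_coprime hXcop, mem_bot, mul_inv_eq_one, mul_inv_eq_iff_eq_mul] at h1
    exact h1
  have hMX : X ≤ centralizer (M : Set A) := by
    refine H53.le_centralizer_of_centralizer_fixed_le M X inferInstance
      (le_normalizer_of_normal) hXcop ?_
    rintro m ⟨hmM, hmc⟩
    refine ⟨hmM, hSM ⟨hmM, hS.centralizer_le ⟨mem_sup_right hmM.1, ?_⟩⟩⟩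
    refine mem_centralizer_iff.2 fun s hs => ?_
    have hsub : S ≤ centralizer ({m} : Set A) := by
      rw [H51.subnormal_eq_sSup_sup_fitting_inf hS.subnormal hS.le_fstar]
      refine sup_le (sSup_le fun L hL => ?_) ?_
      · intro e he
        have h := commutator_eq_bot_iff_le_centralizer.1 (H51.layer_commute_fittingSubgroup A)
          (H51.component_le_layer hL.1 he)
        exact mem_centralizer_singleton_iff.2 (mem_centralizer_iff.1 h m hmM.1).symm
      · rintro g ⟨hgF, hgS⟩
        rw [mem_centralizer_singleton_iff]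
        obtain ⟨a, b, hsplit, ⟨k, hk⟩, hb⟩ := exists_p_p'_split (p := q) g
        rw [hsplit]
        refine (Commute.mul_left ?_ ?_).eq
        · exact commute_pCore_pPrimeCore (mem_pCore_of_mem_fitting (pow_mem hgF a) hk) hmM.2
        · have hbM : g ^ b ∈ M := ⟨pow_mem hgF b, mem_pPrimeCore_of_mem_fitting (pow_mem hgF b) hb⟩
          refine mem_centralizer_iff.1 hmc _ ⟨hbM, hSM ⟨hbM, pow_mem hgS b⟩⟩
    exact mem_centralizer_singleton_iff.1 (hsub hs)
  have hcl : Cfsg.layer A ⊔ M ≤ centralizer (X : Set A) :=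
    sup_le hE fun m hm => mem_centralizer_iff.2 fun x hx =>
      (mem_centralizer_iff.1 (hMX hx) m hm).symm
  exact mem_centralizer_iff.1 (hcl (fstar_coprime_mem hf ho)) x hx

end Cfsg.Agent.H50
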